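import Cfsg.Agent.Lib.IG.Defs
import Cfsg.Agent.Lib.CIT.Main

/-!
# The (CIT)-case: trivial intersection and the small amalgam
-/

set_option autoImplicit false

namespace CfsgLib.IG

open Subgroup Cfsg CfsgLib.Cit CfsgLib.FT.BGN CfsgLib.FT.U4

attribute [local instance] Cit.factTwo

variable {G : Type*} [Group G] [Finite G]

theorem four_bound (hG : CIT G) {σ : MulAut G} {Θ V : Subgroup G} (h : Th σ Θ) (h0 : Θ ≠ ⊥)
    (hV : ∀ v ∈ V, v * v = 1) (hσ : ∀ x ∈ V, σ x ∈ V) : Nat.card V ≤ 4 := by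
  refine (h.card_le_sq hV hσ).trans (Nat.pow_le_pow_left (m := 2) ?_ 2)
  set F := V ⊓ σ.toMonoidHom.eqLocus (MonoidHom.id G)
  by_contra h1
  haveI := Fintype.ofFinite F
  rw [not_le, Nat.card_eq_fintype_card, Fintype.two_lt_card_iff] at h1
  obtain ⟨a, b, c, h1, h2, h3⟩ := h1
  have e : ∀ {s t : F}, s ≠ t → ((s⁻¹ * t : F) : G) ≠ 1 := fun h e =>
    h (inv_mul_eq_one.1 (Subtype.ext e))
  obtain ⟨u, hu, h4, h5⟩ := hG.exists_inv_of_norm (hV _ (a⁻¹ * b).2.1) (hV _ (a⁻¹ * c).2.1) (e h1)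
    (e h2) (fun e => h3 (mul_left_cancel (Subtype.ext e : a⁻¹ * b = a⁻¹ * c)))
    (comm_of_sq hV (a⁻¹ * b).2.1 (a⁻¹ * c).2.1) (h.mem_normalizer (a⁻¹ * b).2.2)
    (h.mem_normalizer (a⁻¹ * c).2.2) h0
  exact h4 (GW.eq_one_of_odd_of_mul_self ((h.mem u).1 hu).2 h5)

theorem HTh.exists_ne_bot [IsSimpleGroup G] (hna : ¬ IsMulCommutative G) (h : HTh G) :
    ∃ (σ : MulAut G) (Θ : Subgroup G), Th σ Θ ∧ Θ ≠ ⊥ := by
  have h1 : ¬ IsPGroup 2 G := fun e => hna (by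
    have := e.isNilpotent
    exact ⟨⟨IsSimpleGroup.comm_iff_isSolvable.2 inferInstance⟩⟩)
  obtain ⟨r, hr, h2, h3⟩ : ∃ r : ℕ, r.Prime ∧ r ∣ Nat.card G ∧ r ≠ 2 := by
    by_contra! hc
    exact h1 (IsPGroup.of_card (Nat.eq_prime_pow_of_unique_prime_dvd Nat.card_pos.ne'
      fun hq hd => hc _ hq hd))
  haveI := Fact.mk hr
  obtain ⟨w, hw⟩ := exists_prime_orderOf_dvd_card' r h2
  obtain ⟨σ, Θ, h4, h5⟩ := h w (hw ▸ hr) (hw ▸ h3)
  refine ⟨σ, Θ, h4, fun e => hr.ne_one ?_⟩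
  rw [e, mem_bot] at h5
  rw [← hw, h5, orderOf_one]

theorem ti_el [IsSimpleGroup G] (hna : ¬ IsMulCommutative G) (hG : CIT G)
    (h : TIm (⊥ : Subgroup G)) {S : Subgroup G} (hS : IsSylowIn 2 S ⊤) {e : G} (he : e ∈ S)
    (hee : e * e = 1) : S ≤ 𝐂[e] := by
  by_cases h1 : e = 1
  · exact fun x _ => mem_centralizer_singleton_iff.2 (by rw [h1, one_mul, mul_one])
  have hns : ¬ Group.IsSolvable G := fun e => hna ⟨⟨IsSimpleGroup.comm_iff_isSolvable.2 e⟩⟩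
  obtain ⟨g, hg⟩ : ∃ g, g ∉ 𝐍(S) := by
    by_contra! hc
    rcases (normalizer_eq_top_iff.1 (eq_top_iff.2 fun g _ => hc g)).eq_bot_or_eq_top with e' | e'
    · exact h1 (mem_bot.1 (e' ▸ he))
    · have := (IsPGroup.of_equiv (e' ▸ hS.isPGroup) topEquiv).isNilpotent
      exact hns inferInstance
  have hT : Syl S ⊥ := by rwa [Syl, norm_bot]
  have cj : ∀ {T : Subgroup G} (g : G), Syl T ⊥ → Syl (g •ᶜ T) ⊥ := fun g hT =>
    hT.cj (by rw [norm_bot]; exact mem_top g)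
  have hT' := cj g hT
  obtain ⟨z, hz, hz1, hzz, hzc⟩ := exists_syl_inv hns (S := g •ᶜ S) (by rwa [Syl, norm_bot] at hT')
  obtain ⟨c, -, hc⟩ := conj_of_odd hzz hee (hG.odd_mul IsPGroup.of_bot h hT' hT
    (fun e' => hg (mem_norm e')) hz hz1 hzz he h1 hee).1
  rw [h _ _ hT (cj c hT') e he (hc ▸ cj_mem hz) h1, ← hc, cent1_conj]
  exact map_mono fun x hx => mem_centralizer_singleton_iff.2 (hzc x hx)

theorem exists_e8_le {S : Subgroup G} (hS : IsSylowIn 2 S ⊤) (h8 : ∃ B : Subgroup G, SE.E8 B) :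
    ∃ B ≤ S, (∀ b ∈ B, b * b = 1) ∧ 8 ≤ Nat.card B := by
  obtain ⟨B, hB⟩ := h8
  obtain ⟨g, -, hg⟩ := hS.exists_conj_le
    (isPGroup_of_sq (A := B) fun b hb => by rw [← sq]; exact hB.1.2 b hb) le_top
  exact ⟨_, hg, fun b hb => by rw [← sq]; exact (hB.conj g).1.2 b hb, (hB.conj g).2⟩

theorem ti_false [IsSimpleGroup G] (hna : ¬ IsMulCommutative G) (hG : CIT G)
    (h : TIm (⊥ : Subgroup G)) (hT : HTh G) (h8 : ∃ B : Subgroup G, SE.E8 B) : False := by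
  obtain ⟨σ, Θ, h1, h2⟩ := hT.exists_ne_bot hna
  obtain ⟨S, hS⟩ := h1.exists_sylow
  have hS' := IsSylowIn.sylow_top S
  have key : ∀ b ∈ (S : Subgroup G), b * b = 1 → b ∈ OmZ (S : Subgroup G) := fun b hb hbb =>
    mem_OmZ.2 ⟨hb, fun s hs => mem_centralizer_singleton_iff.1 (ti_el hna hG h hS' hb hbb hs), hbb⟩
  obtain ⟨B, a1, a2, a3⟩ := exists_e8_le hS' h8
  have := four_bound hG h1 h2 (OmZ_sq S) fun x hx => key _ (hS x (OmZ_le _ hx))
    (by rw [← map_mul, OmZ_sq _ x hx, map_one])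
  have := card_le_of_le (fun b hb => key b (a1 hb) (a2 b hb) : B ≤ OmZ (S : Subgroup G))
  omega

theorem card_le_four_of_index {x : G} (hx : (zpowers x).index = 2) {B : Subgroup G}
    (hB : ∀ b ∈ B, b * b = 1) : Nat.card B ≤ 4 := by
  have h1 : (zpowers x).relIndex B ≤ 2 := by
    rw [← hx, ← relIndex_top_right]
    exact relIndex_le_of_le_right le_top (by rw [relIndex_top_right, hx]; decide)
  have h2 : Nat.card ((zpowers x).subgroupOf B) ≤ 2 := by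
    haveI : IsCyclic ((zpowers x).subgroupOf B) := isCyclic_of_injective
      ((B.subtype.comp ((zpowers x).subgroupOf B).subtype).codRestrict (zpowers x) fun y => y.2)
      fun a b e => Subtype.ext (Subtype.ext (congrArg (fun w : zpowers x => (w : G)) e))
    obtain ⟨g, hg⟩ := IsCyclic.exists_generator (α := (zpowers x).subgroupOf B)
    rw [← orderOf_eq_card_of_forall_mem_zpowers hg]
    exact orderOf_le_of_pow_eq_one two_pos
      (Subtype.ext (Subtype.ext (by simpa [sq] using hB _ g.1.2)))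
  rw [← ((zpowers x).subgroupOf B).card_mul_index]
  exact Nat.mul_le_mul h2 h1

theorem not_e8_of_dqsd {S : Subgroup G} (hS : IsSylowIn 2 S ⊤) (h : PGrp.IsDQSD S) :
    ¬ ∃ B : Subgroup G, SE.E8 B := fun h8 => by
  obtain ⟨n, x, y, hxy⟩ := h
  obtain ⟨B, a1, a2, a3⟩ := exists_e8_le hS h8
  have := card_le_four_of_index hxy.index_zpowers (B := B.subgroupOf S) fun b hb =>
    Subtype.ext (a2 _ hb)
  rw [Nat.card_congr (subgroupOfEquivOfLe a1).toEquiv] at this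
  omega

theorem amal_two (hG : CIT G) {P L : Subgroup G} (h : Amal P L 2) :
    ¬ ∃ B : Subgroup G, SE.E8 B := by
  obtain ⟨S, h1, hS⟩ := IsSylowIn.exists_ge h.l.syl.isPGroup (le_top : P ⊔ L ≤ ⊤)
  obtain ⟨a, -, ha⟩ := h.l.exists_cent_four hG hS.isPGroup S.subtype S.subtype_injective
    (by rw [range_subtype]; exact le_sup_left.trans h1)
  exact not_e8_of_dqsd hS (PGrp.isDQSD_of_card_centralizer hS.isPGroup (h.not_comm hG h1) ha)

end CfsgLib.IG
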