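import Cfsg.Agent.Lib.IG.CitA
import Cfsg.Agent.Lib.CIT.Geo

/-!
# The (CIT)-case: the parameter of the big amalgam
-/

set_option autoImplicit false

namespace CfsgLib.IG

open Subgroup Cfsg CfsgLib.Cit CfsgLib.FT.BGN CfsgLib.FT.U4

attribute [local instance] Cit.factTwo

variable {G : Type*} [Group G] [Finite G]

theorem big_q_four {P L : Subgroup G} {q : ℕ} (h : Big P L q) {σ : MulAut G} {Θ : Subgroup G}
    (hT : Th σ Θ) (h0 : Θ ≠ ⊥) : q = 4 := by
  obtain ⟨S, hS⟩ := hT.exists_sylow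
  obtain ⟨g, -, hg⟩ := (IsSylowIn.sylow_top S).exists_conj_eq h.top
  have h1 := four_bound h.cit hT h0 (OmZ_sq S) fun x hx => mem_OmZ.2 ⟨hS x hx.1, fun s hs => by
    rw [← hT.sq s, ← map_mul, ← map_mul, hx.2.1 _ (hS s hs)], by
      rw [← map_mul, hx.2.2, map_one]⟩
  have h2 : g •ᶜ (P ⊓ L) ≤ OmZ (S : Subgroup G) := fun x hx => mem_OmZ.2
    ⟨hg ▸ map_mono (inf_le_left.trans le_sup_left) hx, by
      rw [← hg, centralizer_map_conj]
      exact map_mono (le_centralizer_iff.1 h.toAmal.le_cent) hx,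
      sq_cj (A := P ⊓ L) (fun a ha => h.l.sq a ha.1) g x hx⟩
  have h3 := card_le_of_le h2
  rw [card_map_of_injective (MulAut.conj g).injective, h.l.cardZ] at h3
  obtain ⟨n, rfl⟩ := h.exists_two_pow
  have h4 := h.lt
  have h5 : n ≤ 2 := (Nat.pow_le_pow_iff_right one_lt_two).1 (h3.trans h1)
  interval_cases n <;> simp_all

/-- The (CIT)-case, given the order of the group in the case of the big amalgam. -/
theorem cit_false_of [IsSimpleGroup G] (hna : ¬ IsMulCommutative G) (hG : CIT G) (hT : HTh G)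
    (h8 : ∃ B : Subgroup G, SE.E8 B) (h4 : ∀ P L : Subgroup G, Big P L 4 → False) : False := by
  have h0 : Loc (⊥ : Subgroup G) := loc_bot_of_pCore (by
    rcases (pCore_normal 2 (G := G)).eq_bot_or_eq_top with e | e
    · exact e
    · have := (IsPGroup.of_equiv (e ▸ pCore_isPGroup 2 : IsPGroup 2 (⊤ : Subgroup G))
        topEquiv).isNilpotent
      exact absurd ⟨⟨IsSimpleGroup.comm_iff_isSolvable.2 inferInstance⟩⟩ hna)
  rcases hG.tIm_or_amal h0 with h | ⟨P, L, q, h⟩
  · exact ti_false hna hG h hT h8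
  rcases h.l.two_le.eq_or_lt with rfl | hq
  · exact amal_two hG h h8
  have hB : Big P L q := ⟨h, hG, hq, h.syl_top hG h0 hq⟩
  obtain ⟨σ, Θ, h1, h2⟩ := hT.exists_ne_bot hna
  obtain rfl := big_q_four hB h1 h2
  exact h4 P L hB

end CfsgLib.IG
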