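import Cfsg.Agent.Lib.CIT.Geo

/-!
# The amalgam case with `q > 2`: any two points are collinear
-/

set_option autoImplicit false

namespace CfsgLib.IG

open Subgroup Cfsg CfsgLib.FT.BGN CfsgLib.FT.U4 CfsgLib.Cit

variable {G : Type*} [Group G] [Finite G] {P L : Subgroup G} {q : ℕ}

attribute [local instance] factTwo

theorem big_col_or (h : Big P L q) : (∀ g, g ∈ Col P L) ∨
    ∃ D : Subgroup G, D ≤ 𝐍(P) ∧ D ≤ 𝐂(D) ∧ Nat.card D = q ^ 2 - 1 := by
  classical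
  refine or_iff_not_imp_left.mpr fun hc => ?_
  obtain ⟨g₀, hg₀⟩ := not_forall.mp hc
  obtain ⟨z, hz, hz1⟩ := h.l.exists_mem
  have hzz := h.l.sq z hz.1
  have hq := h.lt
  have hq2 : 0 < q ^ 2 - 1 := by have : 1 < q ^ 2 := by nlinarith
                                 omega
  set J : Set G := {u | ∃ g ∉ Col P L, g * z * g⁻¹ = u}
  have hJ : ∀ u ∈ J, u * u = 1 ∧ u ≠ 1 := by
    rintro _ ⟨g, -, rfl⟩
    exact ⟨Invol.conj_mul_self hzz g, conj_ne_one_iff.mpr hz1⟩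
  have hJ' : ∀ u ∈ J, u ∉ Col P L := by
    rintro _ ⟨g, hg, rfl⟩ e
    exact hg (h.col_of_conj hz hz1 e)
  set t : Set (G ⧸ 𝐍(P)) := QuotientGroup.mk '' (Col P L)ᶜ
  have h1 : {g | g * z * g⁻¹ ∈ J} = QuotientGroup.mk ⁻¹' t := by
    ext g
    constructor
    · rintro ⟨g', hg', e⟩
      refine ⟨g', hg', QuotientGroup.eq.mpr (h.mem_H hz hz1 ?_)⟩
      have : g'⁻¹ * g * z * (g'⁻¹ * g)⁻¹ = z := by
        calc _ = g'⁻¹ * (g * z * g⁻¹) * g' := by group
          _ = z := by rw [← e]; group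
      exact this.symm ▸ hz.1
    · rintro ⟨g', hg', e⟩
      refine ⟨g, fun e' => hg' ?_, rfl⟩
      simpa using Col.mul e' (one_mem _) (inv_mem (QuotientGroup.eq.mp e))
  have h2 := h.card_conj hz hz1 hJ
  rw [h1, QuotientGroup.card_preimage_mk, h.card_H, mul_assoc,
    Nat.mul_right_inj (by positivity), Nat.card_coe_set_eq, Nat.card_coe_set_eq,
    Set.ncard_eq_toFinset_card t, Set.ncard_eq_toFinset_card J] at h2
  obtain ⟨c, -, h3⟩ := Finset.exists_le_card_fiber_of_mul_le_card_of_maps_to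
    (f := (QuotientGroup.mk : G → G ⧸ 𝐍(P))) (s := (Set.toFinite J).toFinset)
    (t := (Set.toFinite t).toFinset) (n := q ^ 2 - 1)
    (fun u hu => by
      rw [Set.Finite.mem_toFinset] at hu ⊢
      exact ⟨u, hJ' u hu, rfl⟩)
    ⟨g₀, (Set.Finite.mem_toFinset _).mpr ⟨g₀, hg₀, rfl⟩⟩ (by rw [← h2, mul_comm])
  obtain ⟨u, hu⟩ := Finset.card_pos.mp (hq2.trans_le h3)
  simp only [Finset.mem_filter, Set.Finite.mem_toFinset] at hu
  obtain ⟨huu, hu1⟩ := hJ u hu.1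
  set D := 𝐍(P) ⊓ u •ᶜ 𝐍(P) with hD
  have h4 : ∀ v ∈ D, v * v = 1 → v = 1 := fun v hv => h.eq_one_of_not_col (hJ' u hu.1) hv
  have h5 : u ∈ 𝐍(D) := mem_norm_inf huu _
  have h6 : ∀ m ∈ D, u * m * u = m⁻¹ := fun m hm => h.cit.inverts huu hu1 h5 h4 hm
  refine ⟨D, inf_le_left, fun a ha => mem_cent.mpr fun b hb => ?_,
    le_antisymm (Nat.le_of_dvd hq2 ?_) ?_⟩
  · rw [← inv_inj, ← h6 _ (D.mul_mem hb ha), mul_inv_rev, ← h6 a ha, ← h6 b hb]
    calc _ = u * b * (u * u) * a * u := by rw [huu]; group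
      _ = _ := by group
  · have ho : Odd (Nat.card D) := Nat.not_even_iff_odd.mp fun he => by
      obtain ⟨v, hv, h7, h8⟩ := Suz.exists_invol_of_even he
      exact h7 (h4 v hv h8)
    obtain ⟨n, hn⟩ := h.exists_two_pow
    refine Nat.Coprime.dvd_of_dvd_mul_left (m := q ^ 3) ?_
      (h.card_H ▸ card_dvd_of_le (inf_le_left : D ≤ 𝐍(P)))
    rw [hn]
    exact ((Nat.coprime_two_right.mpr ho).pow_right _).pow_right _
  · refine h3.trans ?_
    rw [← Nat.card_eq_finsetCard]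
    refine Nat.card_le_card_of_injective (fun v => ⟨u * v, ?_⟩) fun v w e => ?_
    · have hv := v.2
      simp only [Finset.mem_filter, Set.Finite.mem_toFinset] at hv
      have h7 := QuotientGroup.eq.mp (hu.2.trans hv.2.symm)
      rw [Invol.inv_eq huu] at h7
      refine ⟨h7, mem_cj.mpr ?_⟩
      have h8 := inv_mem h7
      rw [mul_inv_rev, Invol.inv_eq huu, Invol.inv_eq (hJ _ hv.1).1] at h8
      simpa using h8
    · exact Subtype.ext (mul_left_cancel (congrArg Subtype.val e : u * v = u * w))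

theorem big_col (h : Big P L q) (g : G) : g ∈ Col P L := by
  refine (big_col_or h).elim (fun h1 => h1 g) fun ⟨D, hD, hc, hcard⟩ => False.elim ?_
  have hT := h.l.syl
  obtain ⟨n, hn⟩ := h.exists_two_pow
  have hq := h.lt
  have ho : Odd (q ^ 2 - 1) := by
    refine Nat.Even.sub_odd (Nat.one_le_pow _ _ (by omega)) (Nat.even_pow.2 ⟨?_, two_ne_zero⟩) odd_one
    rw [hn]
    refine Nat.even_pow.2 ⟨even_two, ?_⟩
    rintro rfl
    omega
  have hfac : ∀ x ∈ 𝐍(P), ∃ d ∈ D, ∃ s ∈ P ⊔ L, d * s = x := fun x hx => by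
    have e1 : Nat.card (D.subgroupOf 𝐍(P)) = q ^ 2 - 1 := by
      rw [← hcard]
      exact Nat.card_congr (subgroupOfEquivOfLe hD).toEquiv
    have e2 : Nat.card ((P ⊔ L).subgroupOf 𝐍(P)) = q ^ 3 := by
      rw [← h.card_T]
      exact Nat.card_congr (subgroupOfEquivOfLe hT.le).toEquiv
    obtain ⟨⟨d, s⟩, e⟩ := (isComplement'_of_coprime (H := D.subgroupOf 𝐍(P))
      (K := (P ⊔ L).subgroupOf 𝐍(P)) (by rw [e1, e2, h.card_H, mul_comm]) (by
        rw [e1, e2]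
        nth_rewrite 2 [hn]
        exact ((Nat.coprime_two_right.mpr ho).pow_right _).pow_right _)).2 ⟨x, hx⟩
    exact ⟨d.1.1, d.2, s.1.1, s.2, congrArg Subtype.val e⟩
  obtain ⟨k₀, hk₀, -, hk₀o, hk₀1⟩ := h.toAmal.exists_odd h.cit hq
  obtain ⟨k, hk, s, hs, rfl⟩ := hfac k₀ (h.norm_le hk₀)
  have hkN : k ∈ 𝐍(P ⊔ L) := (mul_mem_cancel_right (le_normalizer hs)).1 hk₀
  have hk1 : k ≠ 1 := fun e => hk₀1 (eq_one_of_two_of_odd
    (two_of_mem hT.isPGroup (by rwa [e, one_mul])) hk₀o)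
  have hko : Odd (orderOf k) := Odd.of_dvd_nat (hcard ▸ ho) (Subgroup.orderOf_dvd_natCard _ hk)
  have hall : ∀ x ∈ 𝐍(P), k ∈ 𝐍(x •ᶜ (P ⊔ L)) := fun x hx => by
    obtain ⟨d, hd, s, hs, rfl⟩ := hfac x hx
    rw [← FT.cj_cj, cj_eq (le_normalizer hs), norm_cj, mem_cj, mul_assoc,
      ← mem_cent.mp (hc hk) d hd, inv_mul_cancel_left]
    exact hkN
  obtain ⟨x, hx, hne⟩ := h.l.toPar.exists_cj_ne hT
  refine h.l.toPar.not_le hT fun t ht => ?_
  have h1 : t * k * t⁻¹ * k⁻¹ ∈ P ⊔ L := by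
    rw [mul_assoc, mul_assoc, ← mul_assoc k]
    exact mul_mem ht (cmem hkN (inv_mem ht))
  have h2 : t * k * t⁻¹ ∈ 𝐍(x •ᶜ (P ⊔ L)) := by
    have := cj_mem (g := t) (hall (t⁻¹ * x) (mul_mem (inv_mem (hT.le ht)) hx))
    rwa [← norm_cj, FT.cj_cj, mul_inv_cancel_left] at this
  have h3 : t * k * t⁻¹ * k⁻¹ ∈ P := h.l.ti.mem hT (hT.cj hx) hne.symm h1
    ((hT.cj hx).mem_of_two (two_of_mem hT.isPGroup h1) (hT.le h1)
      (mul_mem h2 (inv_mem (hall x hx))))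
  obtain ⟨d, hd, e⟩ := exists_conj_eq_mul (hD hk) (h.cit.fpf h.l.p2 hko hk1) h3
  have h4 := h.cit.fpf hT.isPGroup hko hk1 (d⁻¹ * t) (mul_mem (inv_mem (mem_sup_left hd)) ht) (by
    rw [inv_mul_cancel_right] at e
    calc _ = d⁻¹ * (t * k * t⁻¹) * t := by group
      _ = _ := by rw [← e]; group)
  exact eq_of_inv_mul_eq_one h4 ▸ hd

theorem big_four (h : Big P L 4) : Nat.card G = 20160 ∧
    ∀ t : G, orderOf t = 2 → Nat.card (centralizer ({t} : Set G)) = 64 := by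
  refine ⟨h.card_G (big_col h), fun t ht => ?_⟩
  obtain ⟨z, hz, hz1⟩ := h.l.exists_mem
  obtain ⟨g, rfl⟩ := h.conj hz hz1 (u := t) (by rw [← pow_two, ← ht, pow_orderOf_eq_one])
    (fun e => by simp [e] at ht)
  have := h.card_T
  rw [← h.cent_eq hz hz1] at this
  change Nat.card 𝐂[g * z * g⁻¹] = 64
  rw [cent1_conj, card_map_of_injective (MulAut.conj g).injective, this]
  norm_num

end CfsgLib.IG
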