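import Cfsg.Agent.Lib.IG.Defs
import Cfsg.Agent.Lib.GW.PslA

/-!
# `PSL₂(q)`, `q` odd, does not satisfy `HTh`
-/

set_option autoImplicit false

namespace CfsgLib.IG

open Subgroup Cfsg Matrix MatrixGroups CfsgLib.GW.PA CfsgLib.BSW CfsgLib.H1 CfsgLib.H5
open scoped Pointwise

theorem HTh.of_equiv {K L : Type*} [Group K] [Group L] (e : K ≃* L) (h : HTh K) : HTh L := by
  intro w h1 h2
  obtain ⟨σ, Θ, h3, h4⟩ := h (e.symm w) (by rwa [MulEquiv.orderOf_eq]) (by rwa [MulEquiv.orderOf_eq])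
  refine ⟨(e.symm.trans σ).trans e, Θ.comap e.symm.toMonoidHom, ⟨fun x => by simp [h3.sq], fun x => ?_⟩, h4⟩
  rw [mem_comap, h3.mem]
  simp only [MulEquiv.toMonoidHom_eq_coe, MonoidHom.coe_coe, MulEquiv.orderOf_eq, MulEquiv.trans_apply]
  rw [← e.eq_symm_apply]

/-- An element of odd order cannot swap two points. -/
theorem eq_of_swap {K Ω : Type*} [Group K] [MulAction K Ω] {g : K} (hg : Odd (orderOf g))
    {a b : Ω} (h1 : g • a = b) (h2 : g • b = a) : b = a := by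
  obtain ⟨k, hk⟩ := hg
  have h3 : ∀ n, (g ^ 2) ^ n • a = a := fun n => by
    induction n with
    | zero => simp
    | succ n ih => rw [pow_succ, mul_smul, pow_two, mul_smul, h1, h2, ← pow_two, ih]
  have h4 := h3 (k + 1)
  rw [← pow_mul, show 2 * (k + 1) = orderOf g + 1 by omega, pow_succ, pow_orderOf_eq_one,
    one_mul] at h4
  rw [← h1, h4]

/-- The abstract argument, for a group permuting points `a` with odd-order subgroups `U a` fixing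
`a` and regular on the other points. -/
theorem swap_false {K Ω : Type*} [Group K] [Finite K] [MulAction K Ω] {σ : MulAut K}
    {Θ : Subgroup K} (h : Th σ Θ) {S : Set Ω} (τ : Ω → Ω) (U : Ω → Subgroup K)
    (hτ : ∀ (g : K) a, τ (g • a) = σ g • τ a) (hττ : ∀ a, τ (τ a) = a)
    (hS : ∀ g : K, ∀ a ∈ S, g • a ∈ S) (hτS : ∀ a ∈ S, τ a ∈ S)
    (hU : ∀ a, ∀ u ∈ U a, σ u ∈ U (τ a)) (hfix : ∀ a, ∀ u ∈ U a, u • a = a)
    (hex : ∀ a ∈ S, ∀ b ∈ S, ∀ c ∈ S, b ≠ a → c ≠ a → ∃ u ∈ U a, u • b = c)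
    (hun : ∀ a ∈ S, ∀ b ∈ S, b ≠ a → ∀ u ∈ U a, u • b = b → u = 1)
    (hodd : ∀ a ∈ S, ∀ u ∈ U a, Odd (orderOf u))
    {a b : Ω} (ha : a ∈ S) (hb : b ∈ S) (hab : b ≠ a) (hτa : τ a = a) {w : K} (hw : w ∈ U a)
    (hw1 : w ≠ 1) (hσw : σ w = w) : False := by
  have hne : ∀ a, ∀ u ∈ U a, ∀ b, b ≠ a → u • b ≠ a := fun a u hu b hb e =>
    hb (MulAction.injective u (e.trans (hfix a u hu).symm))
  have hun2 : ∀ a ∈ S, ∀ b ∈ S, b ≠ a → ∀ u ∈ U a, ∀ v ∈ U a, u • b = v • b → u = v :=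
    fun a ha b hb hab u hu v hv e => (eq_of_inv_mul_eq_one (hun a ha b hb hab _
      (mul_mem (inv_mem hv) hu) (by rw [mul_smul, e, inv_smul_smul]))).symm
  -- transporters between fixed points lie in `Θ`
  have key : ∀ a ∈ S, ∀ b ∈ S, ∀ c ∈ S, b ≠ a → c ≠ a → τ a = a → τ b = b → τ c = c →
      ∃ u ∈ U a, u ∈ Θ ∧ u • b = c := by
    intro a ha b hb c hc h1 h2 h3 h4 h5
    obtain ⟨u, hu, e⟩ := hex a ha b hb c hc h1 h2
    refine ⟨u, hu, (h.mem u).2 ⟨hun2 a ha b hb h1 _ (h3 ▸ hU a u hu) u hu ?_, hodd a ha u hu⟩, e⟩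
    rw [e, ← h5, ← e, hτ, h4]
  -- a second fixed point
  obtain ⟨b, hb, hab, hτb⟩ : ∃ b ∈ S, b ≠ a ∧ τ b = b := by
    obtain ⟨u, hu, e⟩ := hex a ha b hb (τ b) (hτS b hb) hab fun e => hab (by
      rw [← hττ b, e, hτa])
    have h1 : σ u = u⁻¹ := by
      refine eq_inv_of_mul_eq_one_left (hun a ha b hb hab _ (mul_mem (hτa ▸ hU a u hu) hu) ?_)
      rw [mul_smul, e, ← hτ, e, hττ]
    obtain ⟨k, hk⟩ := hodd a ha u hu
    have h2 : u ^ (k + 1) * u ^ (k + 1) = u := by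
      rw [← pow_add, show k + 1 + (k + 1) = orderOf u + 1 by omega, pow_succ,
        pow_orderOf_eq_one, one_mul]
    refine ⟨u ^ (k + 1) • b, hS _ b hb, hne a _ (pow_mem hu _) b hab, ?_⟩
    rw [hτ, map_pow, h1, ← e, ← mul_smul, inv_pow]
    congr 1
    rw [inv_mul_eq_iff_eq_mul, h2]
  have hwΘ : w ∈ Θ := (h.mem w).2 ⟨hσw, hodd a ha w hw⟩
  have hfx : ∀ g ∈ Θ, ∀ c, τ c = c → τ (g • c) = g • c := fun g hg c hc => by
    rw [hτ, hc, ((h.mem g).1 hg).1]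
  obtain ⟨v, hv, hvΘ, e1⟩ := key b hb a ha (w • b) (hS _ b hb) hab.symm
    (fun e => hw1 (hun a ha b hb hab w hw e)) hτb hτa (hfx w hwΘ b hτb)
  have h3 : v⁻¹ • a ≠ a := fun e => hne a w hw b hab (by rw [← e1, ← inv_smul_eq_iff.1 e])
  obtain ⟨u, hu, huΘ, e2⟩ := key a ha (v⁻¹ • a) (hS _ a ha) b hb h3 hab hτa
    (hfx _ (inv_mem hvΘ) a hτa) hτb
  refine hab (eq_of_swap (g := u * v⁻¹ * w)
    ((h.mem _).1 (mul_mem (mul_mem huΘ (inv_mem hvΘ)) hwΘ)).2 ?_ ?_)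
  · rw [mul_smul, mul_smul, hfix a w hw, e2]
  · rw [mul_smul, mul_smul, ← e1, inv_smul_smul, hfix a u hu]

section psl

variable {F : Type*} [Field F]

theorem conj_Rv (g : SL(2, F)) (x y : F) : MulAut.conj (piP F g) • Rv x y =
    Rv (g 0 0 * x + g 0 1 * y) (g 1 0 * x + g 1 1 * y) := by
  ext z
  rw [mem_smul_pointwise_iff_exists, mem_Rv]
  constructor
  · rintro ⟨s, hs, rfl⟩
    obtain ⟨c, rfl⟩ := mem_Rv.1 hs
    exact ⟨c, by rw [← uv_conj, map_mul, map_mul, map_inv]; rfl⟩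
  · rintro ⟨c, rfl⟩
    exact ⟨_, mem_Rv.2 ⟨c, rfl⟩, by rw [← uv_conj, map_mul, map_mul, map_inv]; rfl⟩

theorem Rv_eq_of_det {x y z w : F} (h1 : ¬ (x = 0 ∧ y = 0)) (h2 : ¬ (z = 0 ∧ w = 0))
    (e : z * y = w * x) : Rv z w = Rv x y := by
  obtain ⟨l, rfl, rfl⟩ := exists_smul h1 e
  refine le_antisymm (Rv_smul_le l x y) ?_
  have hl : l ≠ 0 := fun e => h2 (by simp [e])
  have := Rv_smul_le l⁻¹ (l * x) (l * y)
  rwa [inv_mul_cancel_left₀ hl, inv_mul_cancel_left₀ hl] at this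

theorem det_of_Rv_eq (h2 : (2 : F) ≠ 0) {x y z w : F} (e : Rv z w = Rv x y) : z * y = w * x := by
  obtain ⟨d, hd⟩ := mem_Rv.1 (e ▸ (mem_Rv.2 ⟨1, rfl⟩ : piP F (uv z w 1) ∈ Rv z w))
  rcases piP_eq_iff.1 hd with e1 | e1
  · exact det_eq_zero_of_uv one_ne_zero e1.symm
  · have h3 := uv_trace x y d
    have h4 := uv_trace z w 1
    rw [e1, SL2_neg_apply, SL2_neg_apply] at h3
    exact absurd ((mul_eq_zero.mp (by linear_combination -h3 - h4 : (2 : F) * 2 = 0)).elim id id) h2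

theorem psl_not_HTh [Fintype F] (ho : Odd (Fintype.card F)) : ¬ HTh PSL(2, F) := by
  intro hT
  obtain ⟨p, _, ⟨f, hf⟩, hp, hF⟩ := FiniteField.card' F
  have := Fact.mk hp
  have hp2 : p ≠ 2 := fun e' => by
    rw [hF, e'] at ho
    exact Nat.not_even_iff_odd.2 ho (Nat.even_pow.2 ⟨even_two, hf.ne'⟩)
  have h2 : (2 : F) ≠ 0 := fun e => hp2 ((Nat.prime_dvd_prime_iff_eq hp Nat.prime_two).1
    ((CharP.cast_eq_zero_iff F p 2).1 (by exact_mod_cast e)))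
  have hpow : ∀ (x y c : F) (n : ℕ), uv x y c ^ n = uv x y (n * c) := fun x y c n => by
    induction n with
    | zero => simp [uv_zero]
    | succ n ih => rw [pow_succ, ih, ← uv_add]; congr 1; push_cast; ring
  have hp1 : ∀ x y c : F, piP F (uv x y c) ^ p = 1 := fun x y c => by
    rw [← map_pow, hpow, CharP.cast_eq_zero, zero_mul, uv_zero, map_one]
  have hw1 : piP F (uv (1 : F) 0 1) ≠ 1 := fun e =>
    uv_not_mem_center h2 (x := 1) (y := 0) (c := 1) (fun e1 => by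
      have h3 := uv01 (1 : F) 0 1
      rw [e1, one01] at h3
      simp at h3) (piP_eq_one.1 e)
  have hwo := orderOf_eq_prime (hp1 1 0 1) hw1
  obtain ⟨σ, Θ, h, hw⟩ := hT (piP F (uv 1 0 1)) (hwo ▸ hp) (hwo ▸ hp2)
  have hσw := ((h.mem _).1 hw).1
  have hwR : piP F (uv (1 : F) 0 1) ∈ Rv 1 0 := mem_Rv.2 ⟨1, rfl⟩
  have hτa : σ • Rv (1 : F) 0 = Rv 1 0 := by
    rw [← cent_eq_Rv h2 hwR hw1]
    ext z
    rw [mem_pointwise_smul_iff_inv_smul_mem, mem_centralizer_singleton_iff,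
      mem_centralizer_singleton_iff, ← σ.injective.eq_iff, map_mul, map_mul, hσw]
    simp
  have hτ : ∀ (g : PSL(2, F)) (a : Subgroup PSL(2, F)),
      σ • MulAut.conj g • a = MulAut.conj (σ g) • σ • a := fun g a => by
    rw [← mul_smul, ← mul_smul]
    congr 1
    ext x
    simp
  have hS : ∀ (g : SL(2, F)) (x y : F), ¬ (x = 0 ∧ y = 0) →
      ¬ (g 0 0 * x + g 0 1 * y = 0 ∧ g 1 0 * x + g 1 1 * y = 0) := fun g x y h0 ⟨e1, e2⟩ =>
    h0 ⟨by linear_combination g 1 1 * e1 - g 0 1 * e2 - x * SL2_det g,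
      by linear_combination g 0 0 * e2 - g 1 0 * e1 - y * SL2_det g⟩
  have hS2 : ∀ (g : PSL(2, F)), ∀ a ∈ {Q | ∃ x y : F, ¬ (x = 0 ∧ y = 0) ∧ Q = Rv x y},
      MulAut.conj g • a ∈ {Q | ∃ x y : F, ¬ (x = 0 ∧ y = 0) ∧ Q = Rv x y} := by
    rintro g _ ⟨x, y, h0, rfl⟩
    obtain ⟨g, rfl⟩ := piP_surj g
    exact ⟨_, _, hS g x y h0, conj_Rv g x y⟩
  letI := MulAction.compHom (Subgroup PSL(2, F)) (MulAut.conj (G := PSL(2, F)))
  refine swap_false h (S := {Q | ∃ x y : F, ¬ (x = 0 ∧ y = 0) ∧ Q = Rv x y}) (fun Q => σ • Q) id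
    hτ (fun a => ?_) hS2 ?_ (fun a u hu => smul_mem_pointwise_smul _ _ _ hu)
    (fun a u hu => conj_smul_eq_self_of_mem hu) ?_ ?_ ?_ (a := Rv 1 0) (b := Rv 0 1)
    ⟨1, 0, by simp, rfl⟩ ⟨0, 1, by simp, rfl⟩ (fun e => by simpa using det_of_Rv_eq h2 e) hτa hwR
    hw1 hσw
  · change σ • σ • a = a
    rw [← mul_smul, show σ * σ = 1 from MulEquiv.ext h.sq, one_smul]
  · rintro _ ⟨x, y, h0, rfl⟩
    obtain ⟨g, hg⟩ : ∃ g : SL(2, F), g 0 0 = x ∧ g 1 0 = y := by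
      by_cases hx : x = 0
      · have hy : y ≠ 0 := fun e => h0 ⟨hx, e⟩
        exact ⟨⟨!![x, -y⁻¹; y, 0], by rw [det_fin_two_of]; field_simp; ring⟩, rfl, rfl⟩
      · exact ⟨⟨!![x, 0; y, x⁻¹], by rw [det_fin_two_of]; field_simp; ring⟩, rfl, rfl⟩
    have h3 : Rv x y = MulAut.conj (piP F g) • Rv 1 0 := by
      rw [conj_Rv, hg.1, hg.2]
      simp
    change σ • Rv x y ∈ _
    rw [h3, hτ, hτa]
    exact hS2 _ _ ⟨1, 0, by simp, rfl⟩
  · rintro _ ⟨x, y, h0, rfl⟩ _ ⟨a, b, h1, rfl⟩ _ ⟨c, d, h3, rfl⟩ h4 h5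
    have h6 : a * y - b * x ≠ 0 := fun e => h4 (Rv_eq_of_det h0 h1 (sub_eq_zero.1 e))
    have h7 : c * y - d * x ≠ 0 := fun e => h5 (Rv_eq_of_det h0 h3 (sub_eq_zero.1 e))
    refine ⟨piP F (uv x y ((b * c - a * d) / ((a * y - b * x) * (c * y - d * x)))),
      mem_Rv.2 ⟨_, rfl⟩, (conj_Rv _ a b).trans (Rv_eq_of_det h3 (hS _ a b h1) ?_)⟩
    rw [uv00, uv01, uv10, uv11]
    field_simp
    ring
  · rintro _ ⟨x, y, h0, rfl⟩ _ ⟨a, b, h1, rfl⟩ h4 u hu e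
    have h6 : a * y - b * x ≠ 0 := fun e => h4 (Rv_eq_of_det h0 h1 (sub_eq_zero.1 e))
    obtain ⟨c, rfl⟩ := mem_Rv.1 hu
    have h7 := det_of_Rv_eq h2 ((conj_Rv _ a b).symm.trans e)
    rw [uv00, uv01, uv10, uv11] at h7
    have h8 : c * (a * y - b * x) ^ 2 = 0 := by linear_combination h7
    rw [(mul_eq_zero.1 h8).resolve_right (pow_ne_zero 2 h6), uv_zero, map_one]
  · rintro _ ⟨x, y, -, rfl⟩ u hu
    obtain ⟨c, rfl⟩ := mem_Rv.1 hu
    exact Odd.of_dvd_nat (hp.odd_of_ne_two hp2) (orderOf_dvd_of_pow_eq_one (hp1 x y c))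

theorem psl_false {K : Type*} [Group K] [Fintype F] (ho : Odd (Fintype.card F))
    (e : K ≃* PSL(2, F)) (h : HTh K) : False :=
  psl_not_HTh ho (h.of_equiv e)

end psl

end CfsgLib.IG
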