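import Cfsg.Agent.Lib.IG.Defs
import Cfsg.Agent.Lib.SylowAction
import Cfsg.Agent.Lib.GD.Basic
import Cfsg.Agent.Lib.H5Involutions

/-!
# The orders `2520` and `20160`
-/

set_option autoImplicit false

namespace CfsgLib.IG

open Subgroup Cfsg

variable {K : Type*} [Group K] [Finite K]

/-- An involution inverting an element of order `35` has many conjugates. -/
theorem count35 {z g : K} (hg : orderOf g = 35) (hi : z * g * z⁻¹ = g⁻¹)
    (hN : ∀ y ∈ centralizer ({z} : Set K), y ∈ normalizer (zpowers (g ^ 5) : Set K) →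
      y = 1 ∨ y = z) :
    Nat.card (centralizer ({z} : Set K)) * 5 ≤ (centralizer ({z} : Set K)).index := by
  have h7 : orderOf (g ^ 5) = 7 := by rw [orderOf_pow, hg]; rfl
  have hp : ∀ k : ℕ, z * g ^ k * z⁻¹ = (g ^ k)⁻¹ := fun k => by rw [← conj_pow, hi, inv_pow]
  have hq : ∀ k : ℕ, g ^ k * z * (g ^ k)⁻¹ = g ^ (2 * k) * z := fun k => by
    have : z * (g ^ k)⁻¹ = g ^ k * z := by
      have h1 : z * (g ^ k)⁻¹ * z⁻¹ = g ^ k := by rw [← conj_inv, hp k, inv_inv]
      exact mul_inv_eq_iff_eq_mul.1 h1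
    rw [mul_assoc, this, two_mul, pow_add, mul_assoc]
  let f : centralizer ({z} : Set K) × Fin 5 → K ⧸ centralizer ({z} : Set K) :=
    fun p => ((p.1 * g ^ (p.2.1 + 1) : K) : K ⧸ centralizer ({z} : Set K))
  have hf : Function.Injective f := by
    rintro ⟨⟨x, hx⟩, a, ha⟩ ⟨⟨x', hx'⟩, b, hb⟩ e
    have h1 := mem_centralizer_singleton_iff.1 (QuotientGroup.eq.1 e)
    simp only at h1
    have hy := mul_mem (inv_mem hx) hx'
    have h2 := mem_centralizer_singleton_iff.1 hy
    set y := x⁻¹ * x' with hyd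
    have h3 : y * g ^ (2 * (b + 1)) * y⁻¹ = g ^ (2 * (a + 1)) := by
      have h4 : y * (g ^ (b + 1) * z * (g ^ (b + 1))⁻¹) * y⁻¹ =
          g ^ (a + 1) * z * (g ^ (a + 1))⁻¹ := by
        calc _ = g ^ (a + 1) * ((x * g ^ (a + 1))⁻¹ * (x' * g ^ (b + 1)) * z) *
              (g ^ (b + 1))⁻¹ * y⁻¹ := by rw [hyd]; group
          _ = _ := by rw [h1, hyd]; group
      rw [hq, hq] at h4
      calc _ = y * (g ^ (2 * (b + 1)) * z) * y⁻¹ * (y * z⁻¹ * y⁻¹) := by group
        _ = g ^ (2 * (a + 1)) * z * (y * z * y⁻¹)⁻¹ := by rw [h4]; group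
        _ = _ := by rw [h2]; group
    have h5 : y ∈ normalizer (zpowers (g ^ 5) : Set K) := by
      have hc : (2 * (b + 1)).Coprime (orderOf (g ^ 5)) := by
        rw [h7]; interval_cases b <;> decide
      obtain ⟨m, hm⟩ := exists_pow_eq_self_of_coprime hc
      have h6 : y * g ^ 5 * y⁻¹ ∈ zpowers (g ^ 5) := by
        have h8 : y * g ^ 5 * y⁻¹ = ((g ^ 5) ^ (2 * (a + 1))) ^ m := by
          rw [← pow_mul g 5, mul_comm 5, pow_mul g _ 5, ← h3, conj_pow, conj_pow, ← pow_mul g _ 5,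
            mul_comm _ 5, pow_mul g 5, hm]
        rw [h8]
        exact pow_mem (pow_mem (mem_zpowers _) _) _
      refine mem_normalizer_fintype ?_
      rintro _ ⟨k, rfl⟩
      simp only
      rw [← conj_zpow]
      exact zpow_mem h6 k
    rcases hN y hy h5 with h6 | h6
    · rw [h6, one_mul, inv_one, mul_one, pow_inj_mod, hg] at h3
      have h7 : x = x' := inv_mul_eq_one.1 h6
      have h8 : a = b := by omega
      subst h7 h8
      rfl
    · rw [h6, hp, inv_eq_iff_mul_eq_one, ← pow_add, ← orderOf_dvd_iff_pow_eq_one, hg] at h3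
      omega
  have := Nat.card_le_card_of_injective f hf
  rwa [Nat.card_prod, Nat.card_eq_fintype_card (α := Fin 5), Fintype.card_fin] at this

theorem seven_false (hT : HTh K)
    (h : (Nat.card K = 2520 ∧ ∀ t : K, orderOf t = 2 → Nat.card (centralizer ({t} : Set K)) = 24) ∨
      (Nat.card K = 20160 ∧
        ∀ t : K, orderOf t = 2 → Nat.card (centralizer ({t} : Set K)) = 64)) : False := by
  have : Fact (Nat.Prime 7) := ⟨by norm_num⟩
  have : Fact (Nat.Prime 5) := ⟨by norm_num⟩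
  have := Fact.mk Nat.prime_two
  have hd : 2520 ∣ Nat.card K ∧ Nat.card K ∣ 20160 := by
    rcases h with ⟨h, -⟩ | ⟨h, -⟩ <;> rw [h] <;> norm_num
  have hC : ∀ t : K, orderOf t = 2 → Nat.card (centralizer ({t} : Set K)) ∣ 192 := fun t ht => by
    rcases h with ⟨-, h⟩ | ⟨-, h⟩ <;> rw [h t ht] <;> norm_num
  have hC' : ∀ t x : K, orderOf t = 2 → x * t = t * x → orderOf x ∣ 192 := fun t x ht e =>
    (orderOf_dvd_natCard _ (mem_centralizer_singleton_iff.2 e)).trans (hC t ht)
  obtain ⟨w, hw⟩ := exists_prime_orderOf_dvd_card' (G := K) 7 (Dvd.dvd.trans (by norm_num) hd.1)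
  obtain ⟨σ, Θ, hs, hwΘ⟩ := hT w (by rw [hw]; norm_num) (by rw [hw]; norm_num)
  obtain ⟨S, hS⟩ := hs.exists_sylow
  obtain ⟨z, -, hz, hσ⟩ := hs.exists_inv S.isPGroup' (S.ne_bot_of_dvd_card
    (Dvd.dvd.trans (by norm_num) hd.1)) hS
  have hzz : z * z = 1 := by rw [← pow_two, ← hz, pow_orderOf_eq_one]
  obtain ⟨P, hP, hzP⟩ := Cop.exists_invariant_sylowOf 7
    (zpowers_le.2 (hs.mem_normalizer hσ)) (by
      rw [Nat.card_zpowers, hz]; exact Nat.coprime_two_left.2 hs.odd)
    (Or.inl (Group.isSolvable_of_comm fun a b => mul_comm' a b))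
  rw [SE.sylow_iff] at hP
  have hP7 : Nat.card P = 7 := by
    have h1 : 7 ∣ Nat.card P := by
      have := hP.card_dvd (Q := zpowers w) (IsPGroup.of_card (n := 1) (by
        rw [Nat.card_zpowers, hw]; rfl)) (zpowers_le.2 hwΘ)
      rwa [Nat.card_zpowers, hw] at this
    obtain ⟨k, hk⟩ := hP.isPGroup.exists_card_eq
    have h2 := (card_subgroup_dvd_card P).trans hd.2
    rw [hk] at h1 h2 ⊢
    obtain _ | _ | k := k
    · norm_num at h1
    · rfl
    · exact absurd ((pow_dvd_pow 7 (by omega : 2 ≤ k + 1 + 1)).trans h2) (by norm_num)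
  have hzN : z ∈ normalizer (P : Set K) := hzP (mem_zpowers z)
  have hcyc : IsCyclic P := isCyclic_of_prime_card hP7
  obtain ⟨⟨v, hv⟩, hv7⟩ := exists_prime_orderOf_dvd_card' (G := P) 7 (by rw [hP7])
  rw [Subgroup.orderOf_mk] at hv7
  have hPv : zpowers v = P :=
    eq_of_le_of_card_ge (zpowers_le.2 hv) (by rw [Nat.card_zpowers, hv7, hP7])
  set H := centralizer (P : Set K) with hH
  set N := normalizer (P : Set K) with hN
  have hHN : H ≤ N := centralizer_le_normalizer _
  have hPH : P ≤ H := le_centralizer P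
  have hodd : ¬ 2 ∣ Nat.card H := fun e => by
    obtain ⟨⟨t, ht⟩, h2⟩ := exists_prime_orderOf_dvd_card' (G := H) 2 e
    rw [Subgroup.orderOf_mk] at h2
    have := hC' t v h2 (ht v hv)
    rw [hv7] at this
    norm_num at this
  have h6 := CfsgLib.H4.relIndex_centralizer_dvd_totient P
  rw [hP7, show Nat.totient 7 = 6 by decide] at h6
  have h2N : 2 ∣ Nat.card N := hz ▸ orderOf_dvd_natCard _ hzN
  have hmul : Nat.card H * H.relIndex N = Nat.card N := by
    rw [← card_inf_mul_relIndex H N, inf_eq_left.2 hHN]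
  have hidx : N.index % 7 = 1 := by
    let Q : Sylow 7 K := Sylow.ofCard P (by
      rw [hP7]
      rcases h with ⟨h, -⟩ | ⟨h, -⟩ <;> rw [h]
      · rw [show 2520 = 7 * 360 by norm_num, Nat.factorization_mul (by norm_num) (by norm_num)]
        simp [Nat.Prime.factorization_self (show Nat.Prime 7 by norm_num),
          Nat.factorization_eq_zero_of_not_dvd (show ¬ 7 ∣ 360 by norm_num)]
      · rw [show 20160 = 7 * 2880 by norm_num, Nat.factorization_mul (by norm_num) (by norm_num)]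
        simp [Nat.Prime.factorization_self (show Nat.Prime 7 by norm_num),
          Nat.factorization_eq_zero_of_not_dvd (show ¬ 7 ∣ 2880 by norm_num)])
    have h1 := card_sylow_modEq_one 7 K
    rw [Sylow.card_eq_index_normalizer Q] at h1
    exact h1
  have hNi := N.card_mul_index
  obtain ⟨a, ha⟩ : 7 ∣ Nat.card H := hP7 ▸ card_dvd_of_le hPH
  have ha45 : a ∣ 45 := by
    have h1 : 7 * a ∣ 7 * (64 * 45) := ha ▸ (card_subgroup_dvd_card H).trans hd.2
    refine Nat.Coprime.dvd_of_dvd_mul_left ?_ (Nat.dvd_of_mul_dvd_mul_left (by norm_num) h1)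
    refine Nat.Coprime.pow_right 6 (Nat.coprime_two_right.2 (Nat.odd_iff.2 ?_))
    rw [ha] at hodd
    omega
  have hnum : Nat.card H = 35 ∧ Nat.card N = 70 := by
    change H.relIndex N ∣ 6 at h6
    generalize H.relIndex N = e at *
    generalize N.index = i at *
    generalize Nat.card N = c at *
    have he : e = 2 ∨ e = 6 := by
      have := Nat.le_of_dvd (by norm_num) h6
      have h3 : 2 ∣ e := ((Nat.prime_two.dvd_mul).1 (hmul ▸ h2N)).resolve_left hodd
      interval_cases e <;> omega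
    have := Nat.le_of_dvd (by norm_num) ha45
    rw [ha] at hmul ⊢
    subst hmul
    have hk : Nat.card K = 2520 ∨ Nat.card K = 20160 := h.imp And.left And.left
    rcases he with rfl | rfl <;> interval_cases a <;> omega
  obtain ⟨⟨u, hu⟩, hu5⟩ := exists_prime_orderOf_dvd_card' (G := H) 5 (by rw [hnum.1]; norm_num)
  rw [Subgroup.orderOf_mk] at hu5
  have huv : Commute u v := (hu v hv).symm
  have hg : orderOf (u * v) = 35 := by
    rw [huv.orderOf_mul_eq_mul_orderOf_of_coprime (by rw [hu5, hv7]; norm_num), hu5, hv7]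
  have hgH : u * v ∈ H := mul_mem hu (hPH hv)
  have hHg : zpowers (u * v) = H :=
    eq_of_le_of_card_ge (zpowers_le.2 hgH) (by rw [Nat.card_zpowers, hg, hnum.1])
  have h5 : zpowers ((u * v) ^ 5) = P := by
    have : (u * v) ^ 5 = v ^ 5 := by rw [huv.mul_pow, ← hu5, pow_orderOf_eq_one, one_mul]
    refine eq_of_le_of_card_ge (zpowers_le.2 (this ▸ pow_mem hv 5)) ?_
    rw [Nat.card_zpowers, orderOf_pow, hg, hP7]; rfl
  set g := u * v
  have hzg : z * g * z⁻¹ ∈ H :=
    (mem_normalizer_iff.1 (H5.normalizer_le_normalizer_centralizer' P hzN) g).1 hgH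
  have hi : z * g * z⁻¹ = g⁻¹ := by
    have hc : g * (z * g * z⁻¹) = z * g * z⁻¹ * g := by
      obtain ⟨k, hk⟩ := hHg ▸ hzg
      rw [← hk]
      exact (Commute.self_zpow g k).eq
    have hz' : z⁻¹ = z := inv_eq_of_mul_eq_one_right hzz
    have h1 := hC' z (g * (z * g * z⁻¹)) hz (by
      calc g * (z * g * z⁻¹) * z = g * z * g := by group
        _ = (z * z) * g * z * g := by rw [hzz, one_mul]
        _ = z * (z * g * z⁻¹ * g) := by rw [hz']; simp only [mul_assoc]
        _ = _ := by rw [hc])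
    have h2 := orderOf_dvd_natCard _ (mul_mem hgH hzg)
    rw [hnum.1] at h2
    have h3 := Nat.dvd_gcd h1 h2
    exact eq_inv_of_mul_eq_one_right (orderOf_eq_one_iff.1 (Nat.dvd_one.1 h3))
  have hcount := count35 hg hi fun y hy hy' => by
    rw [h5] at hy'
    have h1 : Nat.card ↥(centralizer ({z} : Set K) ⊓ N) ∣ 2 :=
      Nat.dvd_gcd ((card_dvd_of_le inf_le_left).trans (hC z hz))
        (hnum.2 ▸ card_dvd_of_le inf_le_right)
    have h2 : zpowers z = centralizer ({z} : Set K) ⊓ N :=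
      eq_of_le_of_card_ge (zpowers_le.2 ⟨mem_centralizer_singleton_iff.2 rfl, hzN⟩)
        (by rw [Nat.card_zpowers, hz]; exact Nat.le_of_dvd (by norm_num) h1)
    have h3 : y ∈ zpowers z := h2 ▸ ⟨hy, hy'⟩
    exact GD.uniq_zpowers h3 (mem_zpowers z) hz (by
      obtain ⟨k, rfl⟩ := h3
      simp only
      rw [← (Commute.refl z).mul_zpow, hzz, one_zpow])
  have h9 := (centralizer ({z} : Set K)).card_mul_index
  rcases h with ⟨h, h'⟩ | ⟨h, h'⟩ <;> rw [h' z hz] at hcount h9 <;> omega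

end CfsgLib.IG
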