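import Cfsg.Agent.Lib.IG.Red
import Cfsg.Agent.Lib.IG.CitB
import Cfsg.Agent.Lib.IG.Psl
import Cfsg.Agent.Lib.IG.Seven
import Cfsg.Agent.Lib.GD.Main

/-!
# No nonabelian simple group has class sizes of odd prime power elements not divisible by `4`
-/

set_option autoImplicit false

namespace CfsgLib.IG

open Subgroup Cfsg

universe u

attribute [local instance] Cit.factTwo

theorem false_of_simple_of {K : Type u} [Group K] [Finite K] (hs : IsSimpleGroup K)
    (hna : ¬ IsMulCommutative K) (hT : HTh K)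
    (hr : (Cit.CIT K ∧ ∃ B : Subgroup K, SE.E8 B) ∨ GD.Dih K)
    (hb : ∀ P L : Subgroup K, Cit.Big P L 4 → Nat.card K = 20160 ∧
      ∀ t : K, orderOf t = 2 → Nat.card (centralizer ({t} : Set K)) = 64) : False := by
  rcases hr with ⟨hC, h8⟩ | hD
  · exact cit_false_of hna hC hT h8 fun P L h => seven_false hT (Or.inr (hb P L h))
  rcases GD.main K hs hna hD with ⟨F, _, _, -, ho, ⟨e⟩⟩ | h7
  · exact psl_false ho e hT
  · exact seven_false hT (Or.inl ⟨by simpa using h7.card,
      fun t ht => by simpa using (h7.cent t (mem_top t) ht).1⟩)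

theorem not_sq_of (h : ∀ (K : Type u) [Group K] [Finite K], IsSimpleGroup K →
    ¬ IsMulCommutative K → IGp K → HTh K → False) (X : Type u) [Group X] [Finite X]
    [IsSimpleGroup X] (hna : ¬ IsMulCommutative X) : ¬ PP131.SQ 2 X := fun hq => by
  obtain ⟨K, _, _, h1, h2, h3, h4⟩ := red hq fun e =>
    hna ⟨⟨IsSimpleGroup.comm_iff_isSolvable.2 (isSolvable_of_hnpc_two e)⟩⟩
  exact h K h1 h2 h3 h4

end CfsgLib.IG
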