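import Cfsg.Agent.Lib.IG.Defs
import Cfsg.Agent.Lib.Gol.T1
import Cfsg.Agent.Lib.Hom.SD

/-!
# Groups whose involution centralizers have normal `2`-complements: small rank
-/

set_option autoImplicit false

namespace CfsgLib.IG

open Subgroup Cfsg CfsgLib.FT CfsgLib.FT.BGN CfsgLib.GW CfsgLib.SW

universe u

variable {G : Type u} [Group G] [Finite G] {S : Subgroup G}

theorem dih_of_four (hS : IsSylowIn 2 S ⊤) {z t : G} (h : Four z t) (e : S ≤ V z t) : GD.Dih G := by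
  refine Hom.dih_of_frame hS (x := z) (y := t) (fun s hs => ?_) (mul_self_of_inv h.os) ?_
  · rcases h.mem_V.1 (e hs) with rfl | rfl | rfl | rfl <;> simp
  · rw [← h.comm, mul_inv_cancel_right, inv_of_inv h.ot]

theorem dih_of_central (hs : IsSimpleGroup G) (hna : ¬ IsMulCommutative G) (hI : IGp G)
    (hS : IsSylowIn 2 S ⊤) (h8 : ¬ ∃ B : Subgroup G, SE.E8 B)
    (hc : ∀ e ∈ S, e * e = 1 → S ≤ centralizer {e}) : GD.Dih G := by
  have : Fact (Nat.Prime 2) := ⟨Nat.prime_two⟩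
  have h0 : S ≠ ⊥ := fun e => not_cyclic hna hS (e ▸ inferInstance)
  obtain ⟨n, hn, h1⟩ := hS.isPGroup.nontrivial_iff_card.1 ((nontrivial_iff_ne_bot S).2 h0)
  obtain ⟨z, hzS, z1, z2⟩ := Suz.exists_invol_of_even (A := S)
    (h1 ▸ (Nat.even_pow.2 ⟨even_two, hn.ne'⟩))
  have hz : SE.IsInv z := ⟨z2, z1⟩
  obtain ⟨g, hw, hne⟩ := E6.Rk.exists_fused hs hna hS hz (hc z hzS z2)
  have hwi := hz.conj g
  have hcm : z * (g * z * g⁻¹) = g * z * g⁻¹ * z := U4.mem_cent1.1 (hc _ hw hwi.1 hzS)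
  have h4 : Four z (g * z * g⁻¹) := ⟨hz.orderOf, hwi.orderOf, hcm, hne.symm⟩
  have hVS : V z (g * z * g⁻¹) ≤ S := V_le hzS hw
  have hA : ∀ x, x ∈ V z (g * z * g⁻¹) ↔ x ∈ S ∧ x * x = 1 := fun x =>
    ⟨fun h => ⟨hVS h, h4.mul_self_of_mem h⟩, fun h => h4.mem_V.2
      (E6.Rk.four_cases h8 hz hwi hne.symm hcm h.2 (hc z hzS z2 h.1) (hc _ hw hwi.1 h.1))⟩
  by_cases hab : IsMulCommutative S
  · have h5 : omegaOne 2 S = V z (g * z * g⁻¹) := by
      ext x
      rw [PGrp.mem_omegaOne_of_comm hab, hA, sq]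
    have h6 := card_eq_four_of_omega hna hS hab (h5 ▸ h4.card_V)
    exact dih_of_four hS h4 (eq_of_le_of_card_ge hVS (h6.trans h4.card_V.symm).le).ge
  refine (GO.false_of_omega_four hS h4.card_V hA (fun s hs a ha =>
    (U4.mem_cent1.1 (hc a ((hA a).1 ha).1 ((hA a).1 ha).2 hs)).symm) hab (fun hd => ?_)
    fun a ha a1 => hI a (inv_of_mul_self ((hA a).1 ha).2 a1)).elim
  obtain ⟨P, rfl⟩ := IsSylowIn.top_iff.1 hS
  obtain ⟨m, hm, e⟩ := P.conj_eq_normalizer_conj_of_mem_centralizer z g⁻¹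
    (fun s hs => U4.mem_cent1.1 (hc z hzS z2 hs))
    (by rw [inv_inv]; exact fun s hs => U4.mem_cent1.1 (hc _ hw hwi.1 hs))
  rw [inv_inv, mul_assoc m⁻¹, hd hm z (t_mem_V _ _), inv_mul_cancel_left] at e
  exact hne e

theorem dih_of_dqsd (hs : IsSimpleGroup G) (hna : ¬ IsMulCommutative G) (hI : IGp G)
    (hS : IsSylowIn 2 S ⊤) (h : PGrp.IsDQSD S) : GD.Dih G := by
  have : Fact (Nat.Prime 2) := ⟨Nat.prime_two⟩
  obtain ⟨n, ⟨x, hx⟩, ⟨y, hy⟩, h⟩ := h
  have hm := mem_zpowers x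
  have hcen : S ≤ 𝐂[x ^ 2 ^ (n - 1)] := fun s hs => U4.mem_cent1.2 (congrArg Subtype.val
    (mem_center_iff.1 (h.center_eq.ge (mem_zpowers _)) ⟨s, hs⟩))
  have hder : ∀ u ∈ S, ∀ a ∈ S, u * a * u⁻¹ * a⁻¹ ∈ zpowers (x * x) := fun u hu a ha => by
    obtain ⟨i, hi⟩ := h.commutator_eq.le
      (commutator_mem_commutator (mem_top (⟨u, hu⟩ : S)) (mem_top ⟨a, ha⟩))
    exact ⟨i, by simpa [sq, commutatorElement_def] using congrArg Subtype.val hi⟩
  have cov : ∀ s ∈ S, s ∈ zpowers x ∨ s * y⁻¹ ∈ zpowers x := fun s hs => by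
    refine cov_of_relIndex ?_ hy (fun ⟨i, hi⟩ => h.2.2.2.1 ⟨i, Subtype.ext (by simpa using hi)⟩) s hs
    rw [relIndex, ← h.index_zpowers, ← comap_subtype, show zpowers x =
      (zpowers (⟨x, hx⟩ : S)).map S.subtype from (MonoidHom.map_zpowers S.subtype ⟨x, hx⟩).symm,
      comap_map_eq_self_of_injective (subtype_injective _)]
  obtain ⟨h2, -, hn, hyA, h3⟩ := h
  replace hn : orderOf x = 2 ^ n := by rwa [← orderOf_coe] at hn
  replace hyA : y ∉ zpowers x := fun ⟨i, hi⟩ => hyA ⟨i, Subtype.ext (by simpa using hi)⟩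
  obtain ⟨k, rfl⟩ := Nat.exists_eq_add_of_le' h2
  have ht : orderOf (x ^ 2 ^ (k + 1)) = 2 := by
    rw [orderOf_pow_of_dvd (by positivity) (hn ▸ pow_dvd_pow 2 (by omega)), hn, pow_succ,
      Nat.mul_div_cancel_left _ (by positivity)]
  have hsq : x ^ 2 ^ (k + 1) ∈ zpowers (x * x) :=
    ⟨(2 ^ k : ℕ), by simp only [zpow_natCast]; rw [← sq, ← pow_mul, ← pow_succ']⟩
  have uq : ∀ a ∈ zpowers x, a * a = 1 → a = 1 ∨ a = x ^ 2 ^ (k + 1) := fun a ha h =>
    eq_of_inv_of_cyclic inferInstance (pow_mem hm _) ht ha h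
  simp only [Nat.add_succ_sub_one] at hcen
  rcases h3 with ⟨h3, h4⟩ | ⟨h3, h4⟩ | ⟨h5, h3, h4⟩ <;>
    replace h3 := congrArg Subtype.val h3 <;> replace h4 := congrArg Subtype.val h4 <;>
    simp only [coe_mul, InvMemClass.coe_inv, SubmonoidClass.coe_pow, OneMemClass.coe_one, sq,
      Nat.add_succ_sub_one] at h3 h4
  · exact Hom.dih_of_frame hS cov h4 h3
  · exfalso
    have hc : SE.IsInv (x ^ 2 ^ (k + 1)) := ⟨mul_self_of_inv ht, ne_one_of_inv ht⟩
    obtain ⟨g, h5, h6⟩ := E6.Rk.exists_fused hs hna hS hc hcen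
    have h7 := hc.conj g
    generalize g * x ^ 2 ^ (k + 1) * g⁻¹ = a at h5 h6 h7
    rcases cov a h5 with e | e
    · exact h6 ((uq a e h7.1).resolve_left h7.2)
    · refine hc.2 ?_
      rw [← h4, ← h7.1, show a * a = a * y⁻¹ * (y * (a * y⁻¹) * y⁻¹) * (y * y) by group,
        inverts_zpowers h3 _ e, mul_inv_cancel, one_mul]
  exfalso
  have hBA : zpowers (x * x) ≤ zpowers x := zpowers_le.2 (mul_mem hm hm)
  have e1 : x * (y * x * y⁻¹) = x ^ 2 ^ (k + 1) := by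
    rw [h3, ← pow_succ', Nat.sub_add_cancel Nat.one_le_two_pow]
  have e2 : y * (x * x) * y⁻¹ = (x * x)⁻¹ := by
    rw [eq_inv_iff_mul_eq_one, ← _root_.conj_mul, h3, ← pow_add, ← sq, ← pow_add,
      ← orderOf_dvd_iff_pow_eq_one, hn]
    have : 1 ≤ 2 ^ (k + 1) := Nat.one_le_two_pow
    exact ⟨1, by rw [pow_succ 2 (k + 1)]; omega⟩
  have hyB : y ∈ 𝐍(zpowers (x * x)) := mem_normalizer_fintype fun b hb => by
    rw [inverts_zpowers e2 b hb]; exact inv_mem hb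
  have hsqA : ∀ a ∈ S, a * a ∈ zpowers x := fun a ha => by
    rcases cov a ha with e | e
    · exact mul_mem e e
    · rw [show a * a = a * y⁻¹ * (y * (a * y⁻¹) * y⁻¹) * (y * y) by group, h4, mul_one]
      refine mul_mem e ?_
      obtain ⟨i, hi⟩ := e
      rw [← hi, ← conj_zpow, h3]
      exact zpow_mem (pow_mem hm _) i
  have hinv : ∀ a ∈ S, a * a = 1 → a ∈ zpowers (x * x) ⊔ zpowers y := fun a ha h1 => by
    rcases cov a ha with e | ⟨i, e⟩
    · rcases uq a e h1 with rfl | rfl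
      exacts [one_mem _, mem_sup_left hsq]
    have hb : ∀ j : ℤ, x ^ (2 * j) ∈ zpowers (x * x) := fun j => ⟨j, by
      simp only [zpow_mul, zpow_ofNat, sq]⟩
    replace e : a = x ^ i * y := by rw [show x ^ i = a * y⁻¹ from e, inv_mul_cancel_right]
    rcases Int.even_or_odd' i with ⟨j, rfl | rfl⟩
    · exact e ▸ mul_mem (mem_sup_left (hb j)) (mem_sup_right (mem_zpowers y))
    · refine absurd ?_ (ne_one_of_inv ht)
      rw [← e1, ← h1, e, zpow_add_one, show x ^ (2 * j) * x * y * (x ^ (2 * j) * x * y) =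
        x ^ (2 * j) * x * (y * x ^ (2 * j) * y⁻¹) * (y * x * y⁻¹) * (y * y) by group,
        inverts_zpowers e2 _ (hb j), h4]
      group
  have key := Fusion.commutator_inf_le_of_isSylowIn hS (L := zpowers (x * x) ⊔ zpowers y)
    fun a ha g _ hg => by
      by_cases h1 : a * a = 1
      · exact mul_mem (hinv _ hg (Invol.conj_mul_self h1 g)) (inv_mem (hinv a ha h1))
      obtain ⟨j, hj⟩ := orderOf_eq_pow_of_mem_isPGroup hS.isPGroup (mul_mem ha ha)
      obtain ⟨c, ⟨i, hi⟩, c1, c2⟩ := Suz.exists_invol_of_even (A := zpowers (a * a)) (by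
        rw [Nat.card_zpowers, hj]
        exact Nat.even_pow.2 ⟨even_two, fun e => h1 (by simpa [e] using hj)⟩)
      have h6 : c = x ^ 2 ^ (k + 1) := (uq c (hi ▸ zpow_mem (hsqA a ha) i) c2).resolve_left c1
      have h7 : g * c * g⁻¹ = x ^ 2 ^ (k + 1) := (uq _ (by
        rw [← hi, ← conj_zpow, ← _root_.conj_mul]
        exact zpow_mem (hsqA _ hg) i) (Invol.conj_mul_self c2 g)).resolve_left
          (U4.conj_ne_one_iff.2 c1)
      have h8 : g ∈ 𝐂[x ^ 2 ^ (k + 1)] := U4.mem_cent1.2 (mul_inv_eq_iff_eq_mul.1 (h6 ▸ h7))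
      obtain ⟨P, hP⟩ := (hS.mono hcen le_top).exists_sylow
      obtain ⟨u, hu, e⟩ := PCompl.hnpc_fusion (hI _ ht) P ⟨g, h8⟩
      rw [hP] at hu e
      have h9 := congrArg Subtype.val (e ⟨a, hcen ha⟩ ha hg)
      exact mem_sup_left ((show g * a * g⁻¹ = u * a * (u : G)⁻¹ from h9) ▸ hder u hu a ha)
  have h6 := key ⟨(BSW.commutator_eq_top_of_simple hna).ge (mem_top x), hx⟩
  rw [sup_comm, mem_sup_iff_of_le_normalizer (zpowers_le.2 hyB)] at h6
  obtain ⟨a, ha, b, hb, e⟩ := h6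
  have hy1 : orderOf y = 2 := inv_of_mul_self h4 fun e => hyA (e ▸ one_mem _)
  rcases (mem_zpowers_inv hy1).1 ha with rfl | rfl
  · rw [one_mul] at e
    have h7 := card_le_of_le (zpowers_le.2 (e ▸ hb) : zpowers x ≤ zpowers (x * x))
    rw [Nat.card_zpowers, Nat.card_zpowers, ← sq, orderOf_pow_of_dvd two_ne_zero
      (hn ▸ dvd_pow_self 2 (by omega)), hn] at h7
    have : 0 < 2 ^ (k + 2) := by positivity
    omega
  · exact hyA (by simpa [← e] using mul_mem hm (inv_mem (hBA hb)))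

theorem dih_of_cent_four (hs : IsSimpleGroup G) (hna : ¬ IsMulCommutative G) (hI : IGp G)
    (hS : IsSylowIn 2 S ⊤) {z t : G} (hz : SE.IsInv z) (ht : SE.IsInv t) (hne : t ≠ z)
    (h : S ⊓ centralizer {t} = zpowers z ⊔ zpowers t) : GD.Dih G := by
  have h1 := h.ge (mem_sup_left (mem_zpowers z))
  have h2 := h.ge (mem_sup_right (mem_zpowers t))
  have h4 : Four z t := ⟨hz.orderOf, ht.orderOf, U4.mem_cent1.1 h1.2, hne.symm⟩
  by_cases hab : IsMulCommutative S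
  · exact dih_of_four hS h4 fun s hs => h.le ⟨hs, U4.mem_cent1.2
      (PGrp.isMulCommutative_iff_forall.1 hab s hs t h2.1)⟩
  refine dih_of_dqsd hs hna hI hS (PGrp.isDQSD_of_card_centralizer hS.isPGroup hab
    (a := ⟨t, h2.1⟩) ?_)
  rw [← Frob.centralizer_subgroupOf_singleton, ← inf_subgroupOf_left, h,
    Nat.card_congr (subgroupOfEquivOfLe (h.ge.trans inf_le_left)).toEquiv]
  exact h4.card_V

end CfsgLib.IG
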